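import Cfsg.Agent.H780.P9.Iface

/-!
# S5925, box H: the WP lemmas of `plZ0d`, `plZ0e` and the top of `plZ0` (plan v3)

`wp_Z0_of` : `plZ0` from `plZ0b` (helper455).
-/

set_option autoImplicit false
set_option linter.style.longLine false

namespace Cfsg.Agent.H277.P9
open Matrix Cfsg.Agent.H879.E83 Cfsg.Agent.H780.P9

variable {F : Type*} [Field F] {g : F} {q p : Mt F} {m : F} {t : Fin 10 → F}

theorem fr2 (x : F) : (x ^ 3) ^ 3 = x ^ 9 := by rw [← pow_mul]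

/-- `Q = x bar z`, `x ≠ 0`: `bar Q bar (x⁻¹) = z` -/
theorem other {x z : F} (hx : x ^ 80 = 1) (hz : z ^ 81 = z) : (x * z ^ 9) ^ 9 * ((x ^ 79) ^ 3) ^ 3 = z := by
  have e : (x * z ^ 9) ^ 9 * ((x ^ 79) ^ 3) ^ 3 = (x ^ 80) ^ 9 * z ^ 81 := by ring
  rw [e, hx, hz, one_pow, one_mul]

theorem pow79 (x : F) : x * (x ^ 3 * (x ^ 3) ^ 3 * ((x ^ 3) ^ 3) ^ 3 * (x ^ 3 * (x ^ 3) ^ 3 * ((x ^ 3) ^ 3) ^ 3)) = x ^ 79 := by
  ring

/-- the alternatives `g ^ i`, `i < 5` -/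
theorem alt5 {x : F} (h : ∃ i < 5, x = g ^ i) (ks : List F) :
    ∃ e ∈ ([.pw 0, .pw 1, .pw 2, .pw 3, .pw 4] : List Ex), e.eval g ks [] = x := by
  obtain ⟨i, hi, rfl⟩ := h
  refine ⟨.pw i, ?_, rfl⟩
  interval_cases i <;> simp

/-- the alternatives `0, g ^ i`, `i < 5` -/
theorem alt6 {x : F} (h : x = 0 ∨ ∃ i < 5, x = g ^ i) (ks : List F) :
    ∃ e ∈ ([.zero, .pw 0, .pw 1, .pw 2, .pw 3, .pw 4] : List Ex), e.eval g ks [] = x := by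
  rcases h with h | h
  · exact ⟨.zero, by simp, h.symm⟩
  · obtain ⟨e, he, hx⟩ := alt5 h ks
    exact ⟨e, List.mem_cons_of_mem _ he, hx⟩

/-- the alternatives `0, 1, -1` -/
theorem alt3 (c : Ctx g q p m t) (i : Fin 10) (ks : List F) :
    ∃ e ∈ ([.zero, .pw 0, .neg (.pw 0)] : List Ex), e.eval g ks [] = t i := by
  rcases c.tr i with h | h | h
  · exact ⟨.zero, by simp, h.symm⟩
  · exact ⟨.pw 0, by simp, by rw [h]; exact pow_zero g⟩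
  · exact ⟨.neg (.pw 0), by simp, by rw [h]; show -(g ^ 0) = -1; rw [pow_zero]⟩

theorem pow_ne (c : Ctx g q p m t) {x : F} (h : ∃ i < 5, x = g ^ i) : x ≠ 0 := by
  obtain ⟨i, -, rfl⟩ := h
  exact pow_ne_zero _ (ne_of_pow80 (prim c.hg c.h3).pow_eq_one)

theorem wp_Z0d (c : Ctx g q p m t) (hpq : p = q) (h13 : p 1 3 = 0) (h14 : p 1 4 = 0) (h04 : p 0 4 = 0)
    (h23 : p 2 3 = 0) (h : ∀ x y, WS3 g q p t x y) :
    WP g (Sol g q) plZ0d (K40 g p t (p 0 3) (p 2 4)) (LC p) := by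
  refine WP_fl (ls' := [p 0 0, p 0 2, p 2 2]) ?_ rfl ?_
  · intro e he
    simp only [List.mem_cons, List.not_mem_nil, or_false] at he
    rcases he with rfl | rfl
    · show p 0 1 * p 0 1 ^ 9 + (p 0 0 * p 0 2 ^ 9 + (p 0 0 * p 0 2 ^ 9) ^ 9) = 0
      have e := herm_exp' c.four.herm 0 0
      rw [if_neg (by decide), c.sym 1 0, c.sym 2 0, c.sym 3 0, c.sym 4 0, h04] at e
      linear_combination e + p 0 0 ^ 9 * c.p81 0 2
    · show p 1 2 * p 1 2 ^ 9 + (p 0 2 * p 2 2 ^ 9 + (p 0 2 * p 2 2 ^ 9) ^ 9) = 0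
      have e := herm_exp' c.four.herm 2 2
      rw [if_neg (by decide), c.sym 2 1, c.sym 2 0, c.sym 3 2, c.sym 4 2, h23] at e
      linear_combination e + p 0 2 ^ 9 * c.p81 2 2
  · refine WP_df (x := p 0 3) rfl ?_
    refine WP_df (x := p 2 4) rfl ?_
    refine WP_df (x := 0) rfl ?_
    refine WP_sel (ls' := LS3 q) ?_ (h _ _)
    show [p 0 0, p 0 2, p 2 2, p 0 3, 0, 0, 0, p 2 4, 0] = LS3 q
    rw [← hpq]
    unfold LS3
    rw [h13, h14, h04, h23]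

theorem wp_Z0e (c : Ctx g q p m t) (hpq : p = q) (h13 : p 1 3 = 0) (h14 : p 1 4 = 0) (h04 : p 0 4 = 0)
    (h23 : p 2 3 = 0)
    (hn : (∃ i < 5, p 0 3 = g ^ i) ∨ (p 0 3 = 0 ∧ (p 2 4 = 0 ∨ ∃ i < 5, p 2 4 = g ^ i)))
    (h : ∀ x y, WS3 g q p t x y) : WP g (Sol g q) plZ0e (K38 g p t) (LC p) := by
  have hd := wp_Z0d c hpq h13 h14 h04 h23 h
  refine WP_ksp (fun h0 => ?_) (fun h0 => ?_)
  · change p 0 3 * p 2 4 ^ 9 = 0 at h0
    rcases hn with hn | ⟨h03, hn⟩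
    · have h24 : p 2 4 = 0 := by
        rcases mul_eq_zero.1 h0 with h1 | h1
        · exact absurd h1 (pow_ne c hn)
        · exact pow_eq_zero_iff (by norm_num) |>.1 h1
      obtain ⟨e, he, hx⟩ := alt5 hn (K38 g p t)
      refine WP_or_left (WP_alt e he hx (WP_kf (x := 0) rfl ?_))
      rw [h24] at hd
      exact hd
    · refine WP_or_right (WP_kf (x := 0) rfl ?_)
      obtain ⟨e, he, hx⟩ := alt6 hn (K38 g p t ++ [0])
      refine WP_alt e he hx ?_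
      rw [h03] at hd
      exact hd
  · change p 0 3 * p 2 4 ^ 9 ≠ 0 at h0
    have h03 : p 0 3 ≠ 0 := left_ne_zero_of_mul h0
    have hn' : ∃ i < 5, p 0 3 = g ^ i := by
      rcases hn with hn | ⟨h1, -⟩
      · exact hn
      · exact absurd h1 h03
    obtain ⟨e, he, hx⟩ := alt5 hn' (K38 g p t)
    refine WP_alt e he hx (WP_kf (x := p 2 4) ?_ hd)
    show (p 0 3 * p 2 4 ^ 9) ^ 9 * (((p 0 3 * ((p 0 3) ^ 3 * ((p 0 3) ^ 3) ^ 3 * (((p 0 3) ^ 3) ^ 3) ^ 3 *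
      ((p 0 3) ^ 3 * ((p 0 3) ^ 3) ^ 3 * (((p 0 3) ^ 3) ^ 3) ^ 3))) ^ 3) ^ 3) = p 2 4
    rw [pow79]
    exact other (pow80_of (c.p81 0 3) h03) (c.p81 2 4)

/-- the top of `plZ0` -/
theorem wp_Z0_of (c : Ctx g q p m t) (hpq : p = q) (h13 : p 1 3 = 0) (h14 : p 1 4 = 0) (hn : NZ g q)
    (h : ∀ x y, WS3 g q p t x y) (hb : WP g (Sol g q) plZ0b (K40 g p t (p 0 4) (p 2 3)) (LC p)) :
    WC g q p t plZ0 := by
  unfold WC
  obtain ⟨e, he, hx⟩ := alt3 c 8 (K33 g p t)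
  refine WP_alt e he hx ?_
  refine WP_kf (x := QQ p 0 3) c.Q03.symm ?_
  refine WP_kf (x := QQ p 0 4) c.Q04.symm ?_
  refine WP_kf (x := QQ p 0 3 ^ 9) (fr2 _) ?_
  refine WP_kf (x := QQ p 0 4 ^ 9) (fr2 _) ?_
  change WP g (Sol g q) _ (K38 g p t) (LC p)
  rw [← hpq] at hn
  refine WP_ksp (fun h0 => ?_) (fun h0 => ?_)
  · change p 0 4 * p 2 3 ^ 9 = 0 at h0
    rcases hn with hn | ⟨h04, hn⟩ | ⟨h04, h23, hn⟩ | ⟨h04, h23, h03, hn⟩
    · have h23 : p 2 3 = 0 := by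
        rcases mul_eq_zero.1 h0 with h1 | h1
        · exact absurd h1 (pow_ne c hn)
        · exact pow_eq_zero_iff (by norm_num) |>.1 h1
      obtain ⟨e, he, hx⟩ := alt5 hn (K38 g p t)
      refine WP_or_left (WP_alt e he hx (WP_kf (x := 0) rfl ?_))
      rw [h23] at hb
      exact hb
    · refine WP_or_right (WP_or_left (WP_kf (x := 0) rfl ?_))
      obtain ⟨e, he, hx⟩ := alt5 hn (K38 g p t ++ [0])
      refine WP_alt e he hx ?_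
      rw [h04] at hb
      exact hb
    · exact WP_or_right (WP_or_right (wp_Z0e c hpq h13 h14 h04 h23 (.inl hn) h))
    · exact WP_or_right (WP_or_right (wp_Z0e c hpq h13 h14 h04 h23 (.inr ⟨h03, hn⟩) h))
  · change p 0 4 * p 2 3 ^ 9 ≠ 0 at h0
    have h04 : p 0 4 ≠ 0 := left_ne_zero_of_mul h0
    have hn' : ∃ i < 5, p 0 4 = g ^ i := by
      rcases hn with hn | ⟨h1, -⟩ | ⟨h1, -⟩ | ⟨h1, -⟩
      · exact hn
      all_goals exact absurd h1 h04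
    obtain ⟨e, he, hx⟩ := alt5 hn' (K38 g p t)
    refine WP_alt e he hx (WP_kf (x := p 2 3) ?_ hb)
    show (p 0 4 * p 2 3 ^ 9) ^ 9 * (((p 0 4 * ((p 0 4) ^ 3 * ((p 0 4) ^ 3) ^ 3 * (((p 0 4) ^ 3) ^ 3) ^ 3 *
      ((p 0 4) ^ 3 * ((p 0 4) ^ 3) ^ 3 * (((p 0 4) ^ 3) ^ 3) ^ 3))) ^ 3) ^ 3) = p 2 3
    rw [pow79]
    exact other (pow80_of (c.p81 0 4) h04) (c.p81 2 3)

end Cfsg.Agent.H277.P9
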