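import Cfsg.Agent.H277.P9.Z0
import Cfsg.Agent.H455.P9.Zc3

/-!
# S5925, box H: `wp_Z0` (plan v3), the exact statement of the interface
-/

set_option autoImplicit false
set_option linter.style.longLine false

namespace Cfsg.Agent.H277.P9
open Matrix Cfsg.Agent.H879.E83 Cfsg.Agent.H780.P9

variable {F : Type*} [Field F] {g : F} {q p : Mt F} {m : F} {t : Fin 10 → F}

theorem wp_Z0 (c : Ctx g q p m t) (hpq : p = q) (h01 : p 0 1 = 0) (h12 : p 1 2 = 0) (h13 : p 1 3 = 0)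
    (h14 : p 1 4 = 0) (hn : NZ g q) (h : ∀ x y, WS3 g q p t x y) : WC g q p t plZ0 :=
  wp_Z0_of c hpq h13 h14 hn h (Cfsg.Agent.H455.P9.wp_Z0b c hpq h01 h12 h13 h14 h)

end Cfsg.Agent.H277.P9
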